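import Mathlib
import Cfsg.Agent.H648.HarrisKnorr
import Cfsg.Agent.H646.UCov
import Cfsg.Agent.Blocks.OrbitSum
set_option linter.all false

/-!
# Stabilizers of blocks of normal subgroups of `p`-power index

* `mem_of_stabilizes`: `N` normal in `X` of `p`-power index, `b` a block of `X` covering the block
  `c` of `N` with a defect group inside `N`: the stabilizer of `c` in `X` is `N`;
* `exists_middle`: if `B` covers `c` then some block of an intermediate normal subgroup is covered
  by `B` and covers `c`.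
-/

set_option autoImplicit false
set_option linter.unusedSectionVars false

open Cfsg

namespace Cfsg.Agent.H648.IndexStab

open Cfsg.Agent.H644 Cfsg.Agent.Blocks.Local Cfsg.Agent.Blocks.MinMax
open Cfsg.Agent.H648.Dict
open Cfsg.Agent.Blocks.Basic (isPBlock_nonempty isPBlock_sameBlock isPGroup_of_isDefectGroup)

section Index

variable {p : ℕ} [Fact p.Prime] {M : Ideal AlgInt} {X : Type*} [Group X] [Finite X]
  (N : Subgroup X) [hN : N.Normal]

/-- The class sum of `X` on an element whose centralizer lies in `N` is the sum over `X ⧸ N` of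
class sums of `N`. -/
theorem res_clsSum_eq [M.IsPrime] [Fintype (X ⧸ N)] (x : N)
    (hC : Subgroup.centralizer ({(x : X)} : Set X) ≤ N) :
    res N (clsSum M (x : X)) = ∑ γ : X ⧸ N,
      clsSum M (⟨γ.out * x * γ.out⁻¹, hN.conj_mem x x.2 γ.out⟩ : N) := by
  classical
  refine ext_coeff fun n => ?_
  rw [coeff_res, coeff_clsSum, MonoidAlgebra.coeff_sum, Finsupp.finsetSum_apply]
  simp only [coeff_clsSum]
  by_cases h : IsConj (x : X) (n : X)
  · rw [if_pos h]
    obtain ⟨k, hk⟩ := isConj_iff.1 h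
    have key : ∀ γ : X ⧸ N, IsConj (⟨γ.out * x * γ.out⁻¹, hN.conj_mem x x.2 γ.out⟩ : N) n ↔
        γ = (k : X ⧸ N) := by
      intro γ
      rw [isConj_iff]
      constructor
      · rintro ⟨m, hm⟩
        have h1 : (m : X) * (γ.out * x * γ.out⁻¹) * (m : X)⁻¹ = k * x * k⁻¹ := by
          rw [hk]
          exact congrArg Subtype.val hm
        have h2 : k⁻¹ * m * γ.out ∈ Subgroup.centralizer ({(x : X)} : Set X) := by
          rw [Subgroup.mem_centralizer_singleton_iff]
          calc k⁻¹ * m * γ.out * x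
              = k⁻¹ * ((m : X) * (γ.out * x * γ.out⁻¹) * (m : X)⁻¹) * (m * γ.out) := by group
            _ = k⁻¹ * (k * x * k⁻¹) * (m * γ.out) := by rw [h1]
            _ = x * (k⁻¹ * m * γ.out) := by group
        have h3 := hC h2
        have h4 : ((k⁻¹ * m * γ.out : X) : X ⧸ N) = 1 := (QuotientGroup.eq_one_iff _).2 h3
        rw [QuotientGroup.mk_mul, QuotientGroup.mk_mul, QuotientGroup.mk_inv,
          (QuotientGroup.eq_one_iff (m : X)).2 m.2, mul_one] at h4
        have h5 : ((γ.out : X) : X ⧸ N) = γ := Quotient.out_eq γ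
        rw [h5] at h4
        exact (inv_mul_eq_one.1 h4).symm
      · rintro rfl
        have h5 : (((k : X ⧸ N).out : X) : X ⧸ N) = (k : X ⧸ N) := Quotient.out_eq _
        have h6 : k * ((k : X ⧸ N).out)⁻¹ ∈ N := by
          rw [← QuotientGroup.eq_one_iff, QuotientGroup.mk_mul, QuotientGroup.mk_inv, h5,
            mul_inv_cancel]
        refine ⟨⟨_, h6⟩, Subtype.ext ?_⟩
        change (k * ((k : X ⧸ N).out)⁻¹) * ((k : X ⧸ N).out * x * ((k : X ⧸ N).out)⁻¹) *
          (k * ((k : X ⧸ N).out)⁻¹)⁻¹ = n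
        rw [← hk]
        group
    rw [Finset.sum_eq_single (k : X ⧸ N)]
    · rw [if_pos ((key _).2 rfl)]
    · intro γ _ hγ
      rw [if_neg fun h' => hγ ((key γ).1 h')]
    · exact fun h => absurd (Finset.mem_univ _) h
  · rw [if_neg h]
    refine (Finset.sum_eq_zero fun γ _ => ?_).symm
    rw [if_neg]
    intro h'
    obtain ⟨m, hm⟩ := isConj_iff.1 h'
    apply h
    refine isConj_iff.2 ⟨m * γ.out, ?_⟩
    rw [← hm]
    push_cast
    group

/-- `N` normal in `X` of `p`-power index, `b` a block of `X` covering the block `c` of `N` with a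
defect group inside `N`: the stabilizer of `c` in `X` is contained in `N`. -/
theorem mem_of_stabilizes (hM : IsPModular p M) [Fintype X] [Fintype N]
    (hidx : ∃ k : ℕ, N.index = p ^ k)
    {b : Set (IrrCharacter X)} (hb : IsPBlock M b) {c : Set (IrrCharacter N)}
    (hc : IsPBlock M c) (hcov : Covers N b c) {D : Subgroup X} (hD : IsDefectGroup p M b D)
    (hDN : D ≤ N) {t : X} (ht : StabilizesBlock N c t) : t ∈ N := by
  classical
  have hp : M.IsPrime := isPrime_of_isPModular hM
  have : CharP (ResField M) p := charP_resField hM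
  have hU := Cfsg.Agent.H646.UCov.ucov_of_index hM N hidx
  obtain ⟨x, ⟨hx1, hx2, hx3⟩, P, rfl⟩ := hD
  -- `x ∈ N`
  have hxN : x ∈ N := by
    by_contra hxN
    apply hx2
    rw [Cfsg.Agent.H646.UCov.blockCoeff_eq N hU hb, dif_neg hxN]
    exact memLocalIdeal_zero
  -- `C_X(x) ≤ N`
  have hC : Subgroup.centralizer ({x} : Set X) ≤ N := by
    have h1 : (P : Subgroup (Subgroup.centralizer ({x} : Set X))) ≤
        N.subgroupOf (Subgroup.centralizer ({x} : Set X)) := by
      intro y hy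
      exact hDN ⟨y, hy, rfl⟩
    have h2 := Subgroup.index_dvd_of_le h1
    have h3 : ¬ p ∣ (P : Subgroup (Subgroup.centralizer ({x} : Set X))).index := P.not_dvd_index
    have h4 : (N.subgroupOf (Subgroup.centralizer ({x} : Set X))).index ∣ N.index :=
      Subgroup.relIndex_dvd_index_of_normal N _
    obtain ⟨k, hk⟩ := hidx
    rw [hk] at h4
    obtain ⟨i, -, hi⟩ := (Nat.dvd_prime_pow (Fact.out : p.Prime)).1 h4
    rcases Nat.eq_zero_or_pos i with h0 | h0
    · rw [h0, pow_zero, Subgroup.index_eq_one, Subgroup.subgroupOf_eq_top] at hi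
      exact hi
    · exact absurd ((hi ▸ dvd_pow_self p h0.ne').trans h2) h3
  by_contra htN
  obtain ⟨χ, hχ⟩ := isPBlock_nonempty hb
  obtain ⟨θ, hθ⟩ := isPBlock_nonempty hc
  have h1 : lam M (χ : X → ℂ) (clsSum M x) ≠ 0 := by
    rw [lam_clsSum]
    intro h
    exact hx3 χ hχ ((redC_eq_zero_iff (memLocalRing_centralChar χ x)).1 h)
  have h2 : lam M (χ : X → ℂ) (clsSum M x) = lam M (θ : N → ℂ) (res N (clsSum M x)) := by
    refine (covers_iff_lam N hM hb hc).1 hcov χ hχ θ hθ _ (isCls_clsSum x) fun g hg => ?_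
    rw [coeff_clsSum, if_neg]
    intro h
    obtain ⟨k, hk⟩ := isConj_iff.1 h
    exact hg (hk ▸ hN.conj_mem x hxN k)
  have := Fintype.ofFinite (X ⧸ N)
  have h3 := res_clsSum_eq (M := M) N ⟨x, hxN⟩ hC
  -- the function on `X`
  let Φ : X → ResField M := fun g =>
    lam M (θ : N → ℂ) (clsSum M (⟨g * x * g⁻¹, hN.conj_mem x hxN g⟩ : N))
  have hΦ : ∀ g h : X, (g : X ⧸ N) = (h : X ⧸ N) → Φ g = Φ h := by
    intro g h hgh
    have h4 : g * h⁻¹ ∈ N := by
      rw [← QuotientGroup.eq_one_iff, QuotientGroup.mk_mul, QuotientGroup.mk_inv, hgh,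
        mul_inv_cancel]
    have h5 : (⟨g * x * g⁻¹, hN.conj_mem x hxN g⟩ : N) =
        ⟨_, h4⟩ * ⟨h * x * h⁻¹, hN.conj_mem x hxN h⟩ * ⟨_, h4⟩⁻¹ := by
      apply Subtype.ext
      change g * x * g⁻¹ = (g * h⁻¹) * (h * x * h⁻¹) * (g * h⁻¹)⁻¹
      group
    change lam M (θ : N → ℂ) (clsSum M _) = lam M (θ : N → ℂ) (clsSum M _)
    rw [h5]
    congr 1
    refine ext_coeff fun n => ?_
    rw [coeff_clsSum, coeff_clsSum]
    have h6 := isConj_iff.2 ⟨(⟨_, h4⟩ : N), (rfl : (⟨_, h4⟩ : N) *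
      ⟨h * x * h⁻¹, hN.conj_mem x hxN h⟩ * ⟨_, h4⟩⁻¹ = _)⟩
    by_cases h7 : IsConj (⟨h * x * h⁻¹, hN.conj_mem x hxN h⟩ : N) n
    · rw [if_pos (h6.symm.trans h7), if_pos h7]
    · rw [if_neg (fun h8 => h7 (h6.trans h8)), if_neg h7]
  have hΦt : ∀ g : X, Φ (t * g) = Φ g := by
    intro g
    obtain ⟨θ', hθ', hθt⟩ := ht.2 θ hθ
    have e1 : θ' = irrMap (cjE t N N (mem_conj_iff N t)) θ := by
      apply Subtype.ext
      funext n
      rw [irrMap_cjE_apply]
      refine hθt _ n ?_
      change (n : X) = t * (t⁻¹ * n * t) * t⁻¹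
      group
    have e2 : SameBlock M (θ' : N → ℂ) (θ : N → ℂ) := isPBlock_sameBlock hc hθ' hθ
    change lam M (θ : N → ℂ) (clsSum M _) = lam M (θ : N → ℂ) (clsSum M _)
    rw [← (lam_eq_iff_sameBlock θ' θ).2 e2, lam_clsSum, (lam_eq_iff_sameBlock θ' θ).2 e2,
      lam_clsSum, e1, centralChar_irrMap]
    congr 2
    apply Subtype.ext
    change t⁻¹ * (t * g * x * (t * g)⁻¹) * t = g * x * g⁻¹
    group
  let F : X ⧸ N → ResField M := fun γ => Φ γ.out
  have hF : ∀ g : X, F (g : X ⧸ N) = Φ g := fun g => hΦ _ _ (Quotient.out_eq _)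
  have hFt : ∀ γ : X ⧸ N, F ((t : X ⧸ N) * γ) = F γ := by
    intro γ
    obtain ⟨g, rfl⟩ := QuotientGroup.mk_surjective γ
    rw [← QuotientGroup.mk_mul, hF, hF, hΦt]
  have hFz : ∀ (u : Subgroup.zpowers (t : X ⧸ N)) (γ : X ⧸ N), F (u • γ) = F γ := by
    intro u γ
    change F ((u : X ⧸ N) * γ) = F γ
    have h4 : ∀ u : X ⧸ N, u ∈ Subgroup.zpowers (t : X ⧸ N) → ∀ γ, F (u * γ) = F γ := by
      intro u hu
      rw [Subgroup.zpowers_eq_closure] at hu
      induction hu using Subgroup.closure_induction with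
      | mem y hy =>
        intro γ
        rw [Set.mem_singleton_iff.1 hy]
        exact hFt γ
      | one => intro γ; rw [one_mul]
      | mul y z _ _ hy hz => intro γ; rw [mul_assoc, hy, hz]
      | inv y _ hy =>
        intro γ
        conv_rhs => rw [← mul_inv_cancel_left y γ]
        rw [hy]
    exact h4 u u.2 γ
  have hpg : IsPGroup p (X ⧸ N) := by
    obtain ⟨k, hk⟩ := hidx
    exact IsPGroup.of_card (n := k) (by rw [← Subgroup.index_eq_card, hk])
  have hz : IsPGroup p (Subgroup.zpowers (t : X ⧸ N)) := hpg.to_subgroup _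
  obtain ⟨a, ha⟩ := Cfsg.Agent.Blocks.OrbitSum.sum_eq_smul_of_no_fixed hz F hFz (by
    intro γ hγ
    have h4 := hγ ⟨(t : X ⧸ N), Subgroup.mem_zpowers _⟩
    change (t : X ⧸ N) * γ = γ at h4
    have h5 : (t : X ⧸ N) = 1 := by
      have := mul_right_cancel (b := γ) (h4.trans (one_mul γ).symm)
      exact this
    exact htN ((QuotientGroup.eq_one_iff t).1 h5))
  apply h1
  rw [h2]
  change lam M (θ : N → ℂ) (res N (clsSum M ((⟨x, hxN⟩ : N) : X))) = 0
  rw [h3, map_sum]
  change ∑ γ : X ⧸ N, F γ = 0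
  rw [ha, nsmul_eq_mul, CharP.cast_eq_zero, zero_mul]

end Index

section Middle

variable {p : ℕ} [Fact p.Prime] {M : Ideal AlgInt} {G : Type*} [Group G] [Finite G]
  (N L : Subgroup G) [hN : N.Normal] [hL : L.Normal]

/-- The copy of a block of `N` in `L ≥ N`. -/
noncomputable def copy (hNL : N ≤ L) (c : Set (IrrCharacter N)) :
    Set (IrrCharacter (N.subgroupOf L)) :=
  irrMap (Subgroup.subgroupOfEquivOfLe hNL).symm '' c

theorem emb_copy [M.IsPrime] (hNL : N ≤ L) (c : Set (IrrCharacter N)) :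
    emb L (emb (N.subgroupOf L) (idem M (copy N L hNL c))) = emb N (idem M c) := by
  refine ext_coeff fun g => ?_
  by_cases hg : g ∈ N
  · rw [coeff_emb_of_mem _ (hNL hg), coeff_emb_of_mem _
      (show (⟨g, hNL hg⟩ : L) ∈ N.subgroupOf L from hg), coeff_emb_of_mem _ hg]
    exact coeff_idem_irrMap (Subgroup.subgroupOfEquivOfLe hNL).symm c ⟨g, hg⟩
  · rw [coeff_emb_of_notMem _ hg]
    by_cases hgL : g ∈ L
    · rw [coeff_emb_of_mem _ hgL, coeff_emb_of_notMem _
        (show (⟨g, hgL⟩ : L) ∉ N.subgroupOf L from hg)]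
    · rw [coeff_emb_of_notMem _ hgL]

/-- If `B` covers `c` then some block of an intermediate normal subgroup is covered
by `B` and covers `c`. -/
theorem exists_middle (hM : IsPModular p M) [Fintype N] [Fintype L] [Fintype (N.subgroupOf L)]
    (hNL : N ≤ L) {B : Set (IrrCharacter G)} (hB : IsPBlock M B) {c : Set (IrrCharacter N)}
    (hc : IsPBlock M c) (hcov : Covers N B c) :
    ∃ b : Set (IrrCharacter L), IsPBlock M b ∧ Covers L B b ∧
      Covers (N.subgroupOf L) b (copy N L hNL c) := by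
  classical
  have hp : M.IsPrime := isPrime_of_isPModular hM
  have := Fintype.ofFinite (Blk M L)
  rw [covers_iff_idem N hM hB hc] at hcov
  have hc' : IsPBlock M (copy N L hNL c) := isPBlock_irrMap hc
  by_contra hcon
  push Not at hcon
  apply hcov
  calc idem M B * emb N (idem M c)
      = idem M B * (∑ b : Blk M L, emb L (idem M b.1)) * emb N (idem M c) := by
        rw [← map_sum, sum_idem_eq_one hM, map_one, mul_one]
    _ = ∑ b : Blk M L, idem M B * emb L (idem M b.1) * emb N (idem M c) := by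
        rw [Finset.mul_sum, Finset.sum_mul]
    _ = 0 := by
        refine Finset.sum_eq_zero fun b _ => ?_
        by_cases h1 : idem M B * emb L (idem M b.1) = 0
        · rw [h1, zero_mul]
        · have h2 := hcon b.1 b.2 ((covers_iff_idem L hM hB b.2).2 h1)
          rw [covers_iff_idem (N.subgroupOf L) hM b.2 hc', not_not] at h2
          rw [mul_assoc, ← emb_copy N L hNL c, ← map_mul, h2, map_zero, mul_zero]

/-- Elements of `L` stabilizing `c` stabilize its copy. -/
theorem stabilizes_copy (hNL : N ≤ L) {c : Set (IrrCharacter N)} {t : G} (htL : t ∈ L)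
    (ht : StabilizesBlock N c t) :
    StabilizesBlock (N.subgroupOf L) (copy N L hNL c) (⟨t, htL⟩ : L) := by
  refine ⟨?_, ?_⟩
  · rw [Subgroup.normalizer_eq_top]
    trivial
  · rintro _ ⟨χ, hχ, rfl⟩
    obtain ⟨χ', hχ', h1⟩ := ht.2 χ hχ
    refine ⟨irrMap (Subgroup.subgroupOfEquivOfLe hNL).symm χ', ⟨χ', hχ', rfl⟩,
      fun k k' hk => ?_⟩
    rw [irrMap_apply, irrMap_apply]
    apply h1
    exact congrArg Subtype.val hk

/-- `N ≤ L` normal in `G` with `L / N` a `p`-group, `B` covering `c` with a defect group inside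
`N`: elements of `L` stabilizing `c` lie in `N`. -/
theorem mem_of_stabilizes_of_le (hM : IsPModular p M) [Fintype N] (hNL : N ≤ L)
    (hidx : ∃ k : ℕ, (N.subgroupOf L).index = p ^ k) {B : Set (IrrCharacter G)}
    (hB : IsPBlock M B) {c : Set (IrrCharacter N)} (hc : IsPBlock M c) (hcov : Covers N B c)
    {D : Subgroup G} (hD : IsDefectGroup p M B D) (hDN : D ≤ N) {t : G} (htL : t ∈ L)
    (ht : StabilizesBlock N c t) : t ∈ N := by
  have hp : M.IsPrime := isPrime_of_isPModular hM
  have := Fintype.ofFinite L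
  have := Fintype.ofFinite (N.subgroupOf L)
  obtain ⟨b, hb, hBb, hbc⟩ := exists_middle N L hM hNL hB hc hcov
  have hc' : IsPBlock M (copy N L hNL c) := isPBlock_irrMap hc
  obtain ⟨Q, hQ⟩ := Dict.exists_isDefectGroup hM hb
  have hQL : (Q.map L.subtype).subgroupOf L = Q :=
    Subgroup.comap_map_eq_self_of_injective (Subgroup.subtype_injective L) _
  obtain ⟨P, hP, hPQ, -⟩ := HarrisKnorr.exists_defect_over L hM hB hb hBb
    (Subgroup.map_subtype_le Q) (hQL.symm ▸ hQ)
  obtain ⟨x, hx⟩ := HarrisKnorr.exists_conj_of_isDefectGroup hM hB hD hP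
  have hPN : P ≤ N := by
    rw [← hx]
    rintro _ ⟨y, hy, rfl⟩
    exact hN.conj_mem y (hDN hy) x
  have hQN : Q ≤ N.subgroupOf L := by
    rw [← hQL, ← hPQ]
    intro y hy
    exact hPN hy.1
  have h1 := mem_of_stabilizes (N.subgroupOf L) hM hidx hb hc' hbc hQ hQN
    (stabilizes_copy N L hNL htL ht)
  exact h1

end Middle

end Cfsg.Agent.H648.IndexStab
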